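import Cfsg.Agent.H281.PW.Base
import Cfsg.Agent.H189.FeitTits
import Cfsg.Agent.H539.PartCount

/-!
# Alternating groups: products of `p`-elements (helper281, for S2454)
-/

set_option autoImplicit false
set_option linter.unusedSectionVars false

namespace Cfsg.Agent.H281.PWA

open Equiv Equiv.Perm List Cfsg.Agent.H514.DP

section two

variable {α : Type*} [Fintype α] [DecidableEq α]

theorem T.two : ∀ j : ℕ, 4 * j + 5 ≤ Fintype.card α → T α 2 (4 * j + 5) 1 1
  | 0, h => by
    have h1 := T.start (α := α) (p := 2) (by norm_num) (by omega)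
    have h2 := h1.step (by norm_num) (by omega)
    have h3 := h2.step (by norm_num) (by omega)
    have h4 := h3.step (by norm_num) (by omega)
    simpa using h4
  | j + 1, h => by
    have h1 := T.two j (by omega)
    have h2 := h1.step (by norm_num) (by omega)
    have h3 := h2.step (by norm_num) (by omega)
    have h4 := h3.step (by norm_num) (by omega)
    have h5 := h4.step (by norm_num) (by omega)
    have e : 4 * j + 5 + (2 - 1) + (2 - 1) + (2 - 1) + (2 - 1) = 4 * (j + 1) + 5 := by omega
    rw [e] at h5
    simpa using h5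

end two

variable {n : ℕ}

theorem isPE_alt {p : ℕ} {X : Perm (Fin n)} (hX : IsPE p X) (h : X ∈ alternatingGroup (Fin n)) :
    IsPE p (⟨X, h⟩ : alternatingGroup (Fin n)) :=
  IsPE.of_inj (f := (alternatingGroup (Fin n)).subtype) Subtype.val_injective hX

theorem pe_alt {p : ℕ} {X Y : Perm (Fin n)} (hX : IsPE p X) (hY : IsPE p Y) (h : sign X = 1)
    (h' : sign Y = 1) {y : alternatingGroup (Fin n)} (hy : X * Y = y) : PE p 2 y := by
  have h1 := (isPE_alt hX (mem_alternatingGroup.2 h)).pe.mul (isPE_alt hY (mem_alternatingGroup.2 h')).pe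
  have h2 : (⟨X, mem_alternatingGroup.2 h⟩ : alternatingGroup (Fin n)) * ⟨Y, mem_alternatingGroup.2 h'⟩ = y :=
    Subtype.ext hy
  rw [h2] at h1
  exact h1

/-- An odd cycle of length at least `n - 1` is a product of four `p`-elements. -/
theorem exists_cycle (hn : 9 ≤ n) {p : ℕ} (hp : p.Prime) (hpn : p ≤ n) :
    ∃ (L : List (Fin n)) (y : alternatingGroup (Fin n)), L.Nodup ∧ n ≤ L.length + 1 ∧
      (y : Perm (Fin n)) = L.formPerm ∧ PE p 4 y := by
  obtain ⟨N, hN1, hNn, hNo⟩ : ∃ N, n ≤ N + 1 ∧ N ≤ n ∧ N % 2 = 1 := by
    rcases Nat.mod_two_eq_zero_or_one n with h | h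
    · exact ⟨n - 1, by omega, by omega, by omega⟩
    · exact ⟨n, by omega, le_rfl, h⟩
  have hsL : ∀ L : List (Fin n), L.Nodup → L.length = N → sign L.formPerm = 1 := by
    intro L hL hl
    rw [sign_formPerm L hL, hl]
    exact Even.neg_one_pow ⟨(N - 1) / 2, by omega⟩
  rcases hp.eq_two_or_odd with rfl | hpo
  · by_cases h4 : N % 4 = 1
    · obtain ⟨l, a, X, Y, hnd, hlen, hXY, hX, hY, -, -, hs, ht⟩ :=
        T.two (α := Fin n) ((N - 5) / 4) (by rw [Fintype.card_fin]; omega)
      have hlen' : (l ++ [a]).length = N := by omega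
      refine ⟨l ++ [a], ⟨(l ++ [a]).formPerm, mem_alternatingGroup.2 (hsL _ hnd hlen')⟩, hnd,
        by omega, rfl, ?_⟩
      exact (pe_alt hX hY hs ht hXY).mono (by norm_num)
    · obtain ⟨l, a, X, Y, hnd, hlen, hXY, hX, hY, -, -, hs, ht⟩ :=
        T.two (α := Fin n) ((N - 7) / 4) (by rw [Fintype.card_fin]; omega)
      have hlen' : (l ++ [a]).length = N - 2 := by omega
      obtain ⟨m, hm, hml, hmL⟩ := exists_fresh (l ++ [a]) hnd (k := 2)
        (by rw [Fintype.card_fin, hlen']; omega)
      obtain ⟨b, c, rfl⟩ : ∃ b c, m = [b, c] := by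
        match m, hml with
        | [b, c], _ => exact ⟨b, c, rfl⟩
      have hbc : b ≠ c := by
        intro h
        rw [h] at hm
        simp at hm
      have hb : b ∉ l ++ [a] := hmL b (by simp)
      have hc : c ∉ l ++ [a] := hmL c (by simp)
      have hab : a ≠ b := by rintro rfl; exact hb (by simp)
      have hac : a ≠ c := by rintro rfl; exact hc (by simp)
      obtain ⟨m2, hm2, hml2, hmL2⟩ := exists_fresh [a, b, c] (by simp [hab, hac, hbc]) (k := 2)
        (by rw [Fintype.card_fin]; simp; omega)
      obtain ⟨d, e, rfl⟩ : ∃ d e, m2 = [d, e] := by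
        match m2, hml2 with
        | [d, e], _ => exact ⟨d, e, rfl⟩
      have hde : d ≠ e := by
        intro h
        rw [h] at hm2
        simp at hm2
      have hd : d ∉ [a, b, c] := hmL2 d (by simp)
      have he : e ∉ [a, b, c] := hmL2 e (by simp)
      simp only [List.mem_cons, List.not_mem_nil, or_false, not_or] at hd he
      have hnd' : (l ++ a :: [b, c]).Nodup := by
        have : l ++ a :: [b, c] = (l ++ [a]) ++ [b, c] := by simp
        rw [this]
        exact List.nodup_append'.2 ⟨hnd, hm, fun x hx hx' => hmL x hx' hx⟩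
      have hl3 : (l ++ a :: [b, c]).length = N := by
        simp at hlen' ⊢
        omega
      have hsq : ∀ x y z w : Fin n, x ≠ z → x ≠ w → y ≠ z → y ≠ w →
          IsPE 2 (swap x y * swap z w) := by
        intro x y z w h1 h2 h3 h4
        refine IsPE.mul ⟨1, by simp [pow_two]⟩ ⟨1, by simp [pow_two]⟩ ?_
        refine Perm.Disjoint.commute ?_
        intro t
        by_cases h5 : t = x
        · right
          rw [h5, swap_apply_of_ne_of_ne h1 h2]
        · by_cases h6 : t = y
          · right
            rw [h6, swap_apply_of_ne_of_ne h3 h4]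
          · left
            rw [swap_apply_of_ne_of_ne h5 h6]
      have h1 : PE 2 2 (⟨(l ++ [a]).formPerm, mem_alternatingGroup.2 (by
          rw [← hXY, Equiv.Perm.sign_mul, hs, ht, mul_one])⟩ : alternatingGroup (Fin n)) :=
        pe_alt hX hY hs ht hXY
      have h2 : PE 2 2 (⟨swap a b * swap b c, mem_alternatingGroup.2 (by
          rw [Equiv.Perm.sign_mul, sign_swap hab, sign_swap hbc]; rfl)⟩ : alternatingGroup (Fin n)) := by
        refine pe_alt (hsq a b d e (Ne.symm hd.1) (Ne.symm he.1) (Ne.symm hd.2.1) (Ne.symm he.2.1))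
          (hsq d e b c hd.2.1 hd.2.2 he.2.1 he.2.2) ?_ ?_ ?_
        · rw [Equiv.Perm.sign_mul, sign_swap hab, sign_swap hde]; rfl
        · rw [Equiv.Perm.sign_mul, sign_swap hde, sign_swap hbc]; rfl
        · show swap a b * swap d e * (swap d e * swap b c) = swap a b * swap b c
          rw [mul_assoc, ← mul_assoc (swap d e), swap_mul_self, one_mul]
      refine ⟨l ++ a :: [b, c], ⟨(l ++ a :: [b, c]).formPerm, mem_alternatingGroup.2 (hsL _ hnd' hl3)⟩,
        hnd', by omega, rfl, ?_⟩
      have h3 := h1.mul h2
      have h4 : (⟨(l ++ [a]).formPerm, mem_alternatingGroup.2 (by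
          rw [← hXY, Equiv.Perm.sign_mul, hs, ht, mul_one])⟩ : alternatingGroup (Fin n)) *
          ⟨swap a b * swap b c, mem_alternatingGroup.2 (by
            rw [Equiv.Perm.sign_mul, sign_swap hab, sign_swap hbc]; rfl)⟩ =
          ⟨(l ++ a :: [b, c]).formPerm, mem_alternatingGroup.2 (hsL _ hnd' hl3)⟩ := by
        apply Subtype.ext
        show (l ++ [a]).formPerm * (swap a b * swap b c) = (l ++ a :: [b, c]).formPerm
        rw [formPerm_append a [b, c] l, formPerm_cons_cons, formPerm_pair]
      rw [h4] at h3
      exact h3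
  · have h3p : 3 ≤ p := by
      have := hp.two_le
      omega
    obtain ⟨s, t, l, a, X, Y, hnd, hlen, hXY, hX, hY, -, -, -, -⟩ :=
      T.all (α := Fin n) h3p hpo N hNo (by omega) (by rw [Fintype.card_fin]; exact hNn)
    have hsg : ∀ Z : Perm (Fin n), IsPE p Z → sign Z = 1 := by
      rintro Z ⟨k, hk⟩
      have h1 : sign Z ^ (p ^ k) = 1 := by rw [← map_pow, hk, map_one]
      rcases Int.units_eq_one_or (sign Z) with h2 | h2
      · exact h2
      · rw [h2, Odd.neg_one_pow ((Nat.odd_iff.2 hpo).pow)] at h1
        exact absurd h1 (by decide)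
    refine ⟨l ++ [a], ⟨(l ++ [a]).formPerm, mem_alternatingGroup.2 (hsL _ hnd hlen)⟩, hnd,
      by omega, rfl, ?_⟩
    exact (pe_alt hX hY (hsg X hX) (hsg Y hY) hXY).mono (by norm_num)

theorem card_centralizer_le {L : List (Fin n)} (hL : L.Nodup) (hn : 9 ≤ n) (h : n ≤ L.length + 1)
    (y : alternatingGroup (Fin n)) (hy : (y : Perm (Fin n)) = L.formPerm) :
    Nat.card (Subgroup.centralizer ({y} : Set (alternatingGroup (Fin n)))) ≤ n := by
  have h1 : Nat.card (Subgroup.centralizer ({(y : Perm (Fin n))} : Set (Perm (Fin n)))) = L.length := by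
    have hcyc := List.isCycle_formPerm hL (by omega)
    have hsup : L.formPerm.support.card = L.length := by
      rw [List.support_formPerm_of_nodup L hL (by rintro x rfl; simp at h; omega),
        List.toFinset_card_of_nodup hL]
    rw [Equiv.Perm.nat_card_centralizer, hy, hcyc.cycleType, hsup]
    have h2 : L.length ≤ n := by
      have := List.Nodup.length_le_card hL
      rwa [Fintype.card_fin] at this
    have h3 : Nat.factorial (n - L.length) = 1 := Nat.factorial_eq_one.2 (by omega)
    simp [h3]
  have h2 : L.length ≤ n := by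
    have := List.Nodup.length_le_card hL
    rwa [Fintype.card_fin] at this
  refine le_trans ?_ (h1.le.trans h2)
  let f : Subgroup.centralizer ({y} : Set (alternatingGroup (Fin n))) →
      Subgroup.centralizer ({(y : Perm (Fin n))} : Set (Perm (Fin n))) := fun x =>
    ⟨((x : alternatingGroup (Fin n)) : Perm (Fin n)), by
      have := Subgroup.mem_centralizer_singleton_iff.1 x.2
      rw [Subgroup.mem_centralizer_singleton_iff]
      exact congrArg Subtype.val this⟩
  refine Nat.card_le_card_of_injective f fun a b hab => ?_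
  have h4 := congrArg Subtype.val hab
  exact Subtype.ext (Subtype.ext h4)

theorem minDeg_alt (hn : 9 ≤ n) : MinDeg (alternatingGroup (Fin n)) (n - 1) := by
  intro k ρ hρ hk
  have hs : IsSimpleGroup (alternatingGroup (Fin n)) := Cfsg.Agent.H189.FeitTits.alt_simple hn
  have h1 := Cfsg.Agent.H189.FeitTits.feit_tits 0 (V := Fin k → ℂ) hn
    (MonoidHom.id (alternatingGroup (Fin n))) Function.surjective_id ρ (by
      intro g hg
      have hker : (MonoidHom.ker ρ) = ⊥ ∨ (MonoidHom.ker ρ) = ⊤ :=
        hs.eq_bot_or_eq_top_of_normal _ inferInstance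
      rcases hker with h | h
      · have : g ∈ MonoidHom.ker ρ := hg
        rw [h, Subgroup.mem_bot] at this
        exact this
      · exfalso
        have hall : ∀ x, ρ x = 1 := fun x => by
          have : x ∈ MonoidHom.ker ρ := by rw [h]; trivial
          exact this
        -- a line is invariant
        let v : Fin k → ℂ := Pi.single ⟨0, by omega⟩ 1
        let U : Subrepresentation ρ :=
          { toSubmodule := Submodule.span ℂ {v}
            apply_mem_toSubmodule := by
              intro g w hw
              rw [hall]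
              exact hw }
        have hso : IsSimpleOrder (Subrepresentation ρ) := hρ
        rcases hso.eq_bot_or_eq_top U with h | h
        · have h3 : v ∈ (⊥ : Subrepresentation ρ).toSubmodule := by
            rw [← h]
            exact Submodule.mem_span_singleton_self v
          have h4 : v = 0 := h3
          have h5 := congrFun h4 ⟨0, by omega⟩
          simp [v] at h5
        · have h3 : Submodule.span ℂ {v} = (⊤ : Submodule ℂ (Fin k → ℂ)) := by
            have : U.toSubmodule = (⊤ : Subrepresentation ρ).toSubmodule := by rw [h]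
            exact this
          have h4 : Module.finrank ℂ (Submodule.span ℂ {v}) = k := by
            rw [h3, finrank_top, Module.finrank_fin_fun]
          have h5 : Module.finrank ℂ (Submodule.span ℂ {v}) ≤ 1 := by
            have := finrank_span_le_card (R := ℂ) ({v} : Set (Fin k → ℂ))
            simpa using this
          omega)
  rw [if_neg (by rw [zero_dvd_iff]; omega), Module.finrank_fin_fun] at h1
  exact h1

/-- **The row of the alternating groups.** -/
theorem pw_alt {n : ℕ} (hn : 5 ≤ n) {p : ℕ} (hp : p.Prime)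
    (hd : p ∣ Nat.card (alternatingGroup (Fin n))) : PW p 70 (alternatingGroup (Fin n)) := by
  have hs : IsSimpleGroup (alternatingGroup (Fin n)) :=
    alternatingGroup.isSimpleGroup (by rw [Nat.card_eq_fintype_card, Fintype.card_fin]; exact hn)
  by_cases h9 : n ≤ 9
  · have h1 := Cfsg.Agent.H539.PartCount.card_conjClasses_alternating_lt (α := Fin n) (by simpa using hn)
    have h2 := Cfsg.Agent.H539.PartCount.card_conjClasses_perm_le_fib (Fin n)
    rw [Fintype.card_fin] at h2
    have h3 : Nat.fib (n + 1) ≤ Nat.fib 10 := Nat.fib_mono (by omega)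
    have h4 : Nat.fib 10 = 55 := by decide
    exact PW.of_classes hp hd (by omega)
  · have hpn : p ≤ n := by
      have h1 : p ∣ n.factorial := by
        refine hd.trans ?_
        have h2 := Subgroup.card_subgroup_dvd_card (alternatingGroup (Fin n))
        rwa [Nat.card_perm, Nat.card_eq_fintype_card (α := Fin n), Fintype.card_fin] at h2
      exact (Nat.Prime.dvd_factorial hp).1 h1
    obtain ⟨L, y, hL, hLn, hy, hpe⟩ := exists_cycle (by omega) hp hpn
    have hc := card_centralizer_le hL (by omega) hLn y hy
    have h1 : PW p (4 * 5) (alternatingGroup (Fin n)) := by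
      refine PW.of_pe (commutator_alternatingGroup_eq_top
        (by rw [Nat.card_eq_fintype_card, Fintype.card_fin]; omega)) hpe (minDeg_alt (by omega))
        (by norm_num) ?_
      have h2 : 2 * 5 - 4 = 6 := rfl
      rw [h2]
      calc (Nat.card (Subgroup.centralizer ({y} : Set (alternatingGroup (Fin n)))) - 1) ^ 5
          ≤ (n - 1) ^ 5 := Nat.pow_le_pow_left (by omega) 5
        _ < (n - 1) ^ 6 := Nat.pow_lt_pow_right (by omega) (by norm_num)
    exact h1.mono (by norm_num)

end Cfsg.Agent.H281.PWA
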