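import Cfsg.Agent.H281.PW.Cyc

/-!
# Cycles of odd length between `p` and `2 p` (helper281, for S2454)
-/

set_option autoImplicit false
set_option linter.unusedSectionVars false

namespace Cfsg.Agent.H281.PWA

open Equiv Equiv.Perm List Cfsg.Agent.H514.DP

variable {α : Type*} [Fintype α] [DecidableEq α]

theorem join {z : Perm α} (hz : z.IsCycle) {x : α} (hx : x ∈ z.support) (u : List α) (hu : u.Nodup)
    (hd : ∀ y ∈ u, y ∉ z.support) :
    ((u ++ [x]).formPerm * z) ^ (u.length + z.support.card) = 1 := by
  have hzx : z x ≠ x := Perm.mem_support.1 hx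
  have h1 : formPerm (Perm.toList z x) = z := by
    rw [Perm.formPerm_toList, hz.cycleOf_eq hzx]
  have h2 : (Perm.toList z x).length = z.support.card := by
    rw [Perm.length_toList, hz.cycleOf_eq hzx]
  have h3 : 0 < (Perm.toList z x).length := Perm.length_toList_pos_of_mem_support z x hx
  obtain ⟨r, hr⟩ : ∃ r, Perm.toList z x = x :: r := by
    have h4 := Perm.toList_getElem_zero z x hx
    cases h5 : Perm.toList z x with
    | nil => rw [h5] at h3; simp at h3
    | cons a r =>
      refine ⟨r, ?_⟩
      simp only [h5, List.getElem_cons_zero] at h4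
      rw [h4]
  have h4 : (u ++ x :: r).formPerm = (u ++ [x]).formPerm * z := by
    rw [formPerm_append, ← hr, h1]
  have h5 : (u ++ x :: r).Nodup := by
    rw [← hr]
    refine List.nodup_append'.2 ⟨hu, Perm.nodup_toList z x, ?_⟩
    intro y hy hy'
    rw [Perm.mem_toList_iff] at hy'
    exact hd y hy (by
      rw [Perm.mem_support]
      exact (hy'.1.apply_eq_self_iff.not).1 hzx)
  have h6 := formPerm_pow_length_eq_one_of_nodup _ h5
  rw [h4, List.length_append, ← hr, h2] at h6
  exact h6

theorem T.base {p s : ℕ} (hs3 : 3 ≤ s) (hso : s % 2 = 1) (hsp : s < p)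
    (hc : 2 * p - s ≤ Fintype.card α) : ∃ a b, T α p (2 * p - s) a b := by
  obtain ⟨L, hL, hlen, -⟩ := exists_fresh ([] : List α) List.nodup_nil (k := 2 * p - s)
    (by simpa using hc)
  -- the three parts
  obtain ⟨u, Z, v, rfl, hul, hZl, hvl⟩ : ∃ u Z v : List α, L = u ++ Z ++ v ∧ u.length = p - s ∧
      Z.length = s ∧ v.length = p - s := by
    refine ⟨L.take (p - s), (L.drop (p - s)).take s, (L.drop (p - s)).drop s, ?_, ?_, ?_, ?_⟩
    · rw [List.append_assoc, List.take_append_drop, List.take_append_drop]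
    · rw [List.length_take, hlen]; omega
    · rw [List.length_take, List.length_drop, hlen]; omega
    · rw [List.length_drop, List.length_drop, hlen]; omega
  obtain ⟨hL1, hv, hLv⟩ := List.nodup_append'.1 hL
  obtain ⟨hu, hZ, huZ⟩ := List.nodup_append'.1 hL1
  have hZne : Z ≠ [] := by rintro rfl; simp at hZl; omega
  have hvne : v ≠ [] := by rintro rfl; simp at hvl; omega
  set c := Z.formPerm with hcdef
  have hcc : c.IsCycle := List.isCycle_formPerm hZ (by omega)
  have hsupp : c.support = Z.toFinset := List.support_formPerm_of_nodup Z hZ (by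
    rintro x rfl
    simp at hZl
    omega)
  have hcard : c.support.card = s := by rw [hsupp, List.toFinset_card_of_nodup hZ, hZl]
  have hord : orderOf c = s := by rw [hcc.orderOf, hcard]
  set k := (s + 1) / 2 with hk
  have hk2 : 2 * k = s + 1 := by omega
  set z := c ^ k with hzdef
  have hcop : k.Coprime s := by
    rw [Nat.coprime_comm]
    have h1 : Nat.Coprime s (2 * k) := by rw [hk2]; simp
    exact Nat.Coprime.coprime_mul_left_right h1
  have hzc : z.IsCycle := by
    rw [hzdef, hcc.pow_iff, hord]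
    exact hcop
  have hzs : z.support = c.support := by
    rw [hzdef, hcc.support_pow_eq_iff, hord]
    intro h
    have := Nat.le_of_dvd (by omega) h
    omega
  have hzz : z * z = c := by
    rw [hzdef, ← pow_add, ← two_mul, hk2, pow_succ, ← hord, pow_orderOf_eq_one, one_mul]
  -- first and last elements of `Z`
  obtain ⟨Z1, z2, hZ2⟩ : ∃ Z1 z2, Z = Z1 ++ [z2] :=
    ⟨Z.dropLast, Z.getLast hZne, (List.dropLast_append_getLast hZne).symm⟩
  obtain ⟨z1, Z3, hZ3⟩ : ∃ z1 Z3, Z = z1 :: Z3 := List.exists_cons_of_ne_nil hZne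
  have hz1 : z1 ∈ z.support := by
    rw [hzs, hsupp, List.mem_toFinset, hZ3]
    simp
  have hz2 : z2 ∈ (z⁻¹).support := by
    rw [Perm.support_inv, hzs, hsupp, List.mem_toFinset, hZ2]
    simp
  set X := (u ++ [z1]).formPerm * z with hX
  set Y := z * (z2 :: v).formPerm with hY
  have hXY : X * Y = (u ++ Z ++ v).formPerm := by
    have e1 : u ++ Z ++ v = u ++ z1 :: (Z3 ++ v) := by rw [hZ3]; simp
    have e2 : z1 :: (Z3 ++ v) = Z1 ++ z2 :: v := by
      have : z1 :: (Z3 ++ v) = Z ++ v := by rw [hZ3]; rfl
      rw [this, hZ2]; simp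
    rw [e1, formPerm_append z1 _ u, e2, formPerm_append z2 v Z1, ← hZ2, ← hcdef, hX, hY, ← hzz]
    group
  have hXp : IsPE p X := by
    refine ⟨1, ?_⟩
    have h1 := join hzc hz1 u hu (by
      intro y hy hy'
      rw [hzs, hsupp, List.mem_toFinset] at hy'
      exact huZ hy hy')
    rw [hul, hzs, hcard, Nat.sub_add_cancel hsp.le] at h1
    rw [pow_one]
    exact h1
  have hYp : IsPE p Y := by
    have h1 := join hzc.inv hz2 v.reverse (List.nodup_reverse.2 hv) (by
      intro y hy hy'
      rw [Perm.support_inv, hzs, hsupp, List.mem_toFinset] at hy'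
      exact hLv (List.mem_append_right _ hy') (List.mem_reverse.1 hy))
    rw [List.length_reverse, hvl, Perm.support_inv, hzs, hcard, Nat.sub_add_cancel hsp.le] at h1
    have h2 : (v.reverse ++ [z2]).formPerm * z⁻¹ = Y⁻¹ := by
      have : v.reverse ++ [z2] = (z2 :: v).reverse := by simp
      rw [this, formPerm_reverse, hY, mul_inv_rev]
    rw [h2] at h1
    have h3 : IsPE p Y⁻¹ := ⟨1, by rw [pow_one]; exact h1⟩
    have h4 := h3.inv
    rwa [inv_inv] at h4
  obtain ⟨v', b, rfl⟩ : ∃ v' b, v = v' ++ [b] :=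
    ⟨v.dropLast, v.getLast hvne, (List.dropLast_append_getLast hvne).symm⟩
  have hzfix : ∀ x, x ∉ Z → z x = x := by
    intro x hx
    rw [← Perm.notMem_support, hzs, hsupp, List.mem_toFinset]
    exact hx
  have hXfix : ∀ x, x ∉ u → x ∉ Z → X x = x := by
    intro x hx hx'
    rw [hX, Perm.mul_apply, hzfix x hx']
    refine formPerm_apply_of_notMem ?_
    intro h
    rcases List.mem_append.1 h with h | h
    · exact hx h
    · rw [List.mem_singleton] at h
      exact hx' (by rw [h, hZ3]; simp)
  have hYfix : ∀ x, x ∉ v' ++ [b] → x ∉ Z → Y x = x := by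
    intro x hx hx'
    rw [hY, Perm.mul_apply, formPerm_apply_of_notMem, hzfix x hx']
    intro h
    rcases List.mem_cons.1 h with h | h
    · exact hx' (by rw [h, hZ2]; simp)
    · exact hx h
  have e : u ++ Z ++ (v' ++ [b]) = (u ++ Z ++ v') ++ [b] := by simp
  rw [e] at hL hlen hXY
  have key := T.swap hL hXY hXp hYp (fun x hx => by
    have h1 : x ∉ u := fun h => hx (by simp [h])
    have h2 : x ∉ Z := fun h => hx (by simp [h])
    have h3 : x ∉ v' ++ [b] := fun h => hx (by
      rcases List.mem_append.1 h with h | h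
      · simp [h]
      · simp at h; simp [h])
    exact ⟨hXfix x h1 h2, hYfix x h3 h2⟩) (hXfix b
      (fun h => hLv (List.mem_append_left _ h) (by simp))
      (fun h => hLv (List.mem_append_right _ h) (by simp)))
  rw [hlen] at key
  exact ⟨_, _, key⟩

/-- Every odd length from `p` on. -/
theorem T.all {p : ℕ} (hp : 3 ≤ p) (hpo : p % 2 = 1) : ∀ N : ℕ, N % 2 = 1 → p ≤ N →
    N ≤ Fintype.card α → ∃ a b, T α p N a b := by
  intro N
  induction N using Nat.strong_induction_on with
  | _ N ih =>
  intro hN hpN hc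
  by_cases h1 : 2 * p - 1 ≤ N
  · obtain ⟨a, b, h⟩ := ih (N - (p - 1)) (by omega) (by omega) (by omega) (by omega)
    have h2 := h.step (by omega) (by omega)
    rw [Nat.sub_add_cancel (by omega)] at h2
    exact ⟨_, _, h2⟩
  · by_cases h2 : N = p
    · subst h2
      exact ⟨_, _, T.start (by omega) hc⟩
    · have h3 := T.base (α := α) (p := p) (s := 2 * p - N) (by omega) (by omega) (by omega)
        (by have : 2 * p - (2 * p - N) = N := by omega
            rw [this]; exact hc)
      have h4 : 2 * p - (2 * p - N) = N := by omega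
      rw [h4] at h3
      exact h3

end Cfsg.Agent.H281.PWA
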